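import Groth.Prelude.Def_EtDepth
import Groth.Prelude.Def_EtAcyc
import Groth.Agent.Sga1.UlaSL
import Groth.Agent.Etrest.HpullTors2
import Groth.Agent.Etrest.HConstIso
import Groth.Agent.S0073
import Groth.Agent.S0101

/-!
# Geometric fibres of strict localizations of a locally `n`-acyclic morphism (`EtDepth.IsLocAcyclicLE`)

* `connectedSpace_of_bijective_const`: a space on which all locally constant functions with values in a
  nontrivial type are constant is connected (and nonempty).
* `isAcyclicSchemeN_of_Hpull`: `C` strictly henselian, `π : Q ⟶ Spec C`, pullback bijective on `H^q(-, Z/ℓ)` for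
  `q ≤ n` ⟹ `Q` is an `n`-acyclic scheme for `{ℓ}`.
* `isAcyclicSchemeN_of_iso`: invariance under isomorphism.
* `of_isLocAcyclicLE`: geometric fibres of arbitrary strict localizations of an `EtDepth.IsLocAcyclicLE` morphism.
-/

set_option autoImplicit false
universe u

open CategoryTheory CategoryTheory.Limits AlgebraicGeometry Opposite IsLocalRing
open scoped TensorProduct

namespace Groth.Agent.Sga2lef.H105.GeoFib

open Groth.Agent.Etrest.StrictLoc Groth.Agent.Etrest.HpullConst Groth.Agent.Sga1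

theorem connectedSpace_of_bijective_const {T : Type*} [TopologicalSpace T] {M : Type*} [Nontrivial M]
    (h : Function.Bijective (LocallyConstant.const T : M → LocallyConstant T M)) : ConnectedSpace T := by
  classical
  obtain ⟨a, b, hab⟩ := exists_pair_ne M
  have hne : Nonempty T := by
    by_contra hn
    rw [not_nonempty_iff] at hn
    exact hab (h.1 (LocallyConstant.ext fun x => isEmptyElim x))
  have hp : PreconnectedSpace T := by
    rw [preconnectedSpace_iff_clopen]
    intro U hU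
    obtain ⟨m, hm⟩ := h.2 ((LocallyConstant.ofIsClopen hU).map ![a, b])
    by_contra hcon
    push Not at hcon
    obtain ⟨h1, h2⟩ := hcon
    obtain ⟨x, hx⟩ : U.Nonempty := by simpa [Set.nonempty_iff_ne_empty] using h1
    obtain ⟨y, hy⟩ := (Set.ne_univ_iff_exists_notMem U).1 h2
    have hx' : m = a := by
      refine (DFunLike.congr_fun hm x).trans ?_
      change ![a, b] (if x ∈ U then (0 : Fin 2) else 1) = a
      rw [if_pos hx]
      rfl
    have hy' : m = b := by
      refine (DFunLike.congr_fun hm y).trans ?_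
      change ![a, b] (if y ∈ U then (0 : Fin 2) else 1) = b
      rw [if_neg hy]
      rfl
    exact hab (hx'.symm.trans hy')
  exact { toPreconnectedSpace := hp, toNonempty := hne }

/-- Invariance of `EtAcyc.IsAcyclicSchemeN` under isomorphism. -/
theorem isAcyclicSchemeN_of_iso {X Y : Scheme.{u}} (e : X ≅ Y) {L : Set ℕ} {n : ℕ}
    (h : EtAcyc.IsAcyclicSchemeN L n Y) : EtAcyc.IsAcyclicSchemeN L n X := by
  obtain ⟨h1, h2, h3⟩ := h
  have e' : X ≃ₜ Y := e.hom.homeomorph
  refine ⟨⟨e'.symm (Classical.choice h1)⟩, ?_, fun ℓ hℓ hL q hq hqn => ?_⟩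
  · have := e'.symm.surjective.connectedSpace e'.symm.continuous
    exact this
  · have := h3 ℓ hℓ hL q hq hqn
    obtain ⟨eq⟩ := Groth.Agent.Etrest.HConstIso.nonempty_HConst e (ZMod ℓ) q
    exact eq.symm.subsingleton

/-- `C` strictly henselian, `π : Q ⟶ Spec C` such that pullback is bijective on `H^q(-, Z/ℓ)` for `q ≤ n`: then `Q`
is an `n`-acyclic scheme for `{ℓ}`. -/
theorem isAcyclicSchemeN_of_Hpull {C : Type u} [CommRing C] [HenselianLocalRing C]
    [IsSepClosed (ResidueField C)] {Q : Scheme.{u}} (π : Q ⟶ Spec (CommRingCat.of C))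
    [PreservesFiniteLimits (EtCoh.pull π)] {ℓ : ℕ} (hℓ : ℓ.Prime) {n : ℕ}
    (h : ∀ q : ℕ, q ≤ n → Function.Bijective (EtCore.Hpull π (EtCoh.const _ (ZMod ℓ)) q)) :
    EtAcyc.IsAcyclicSchemeN {ℓ} n Q := by
  have hℓ' : Fact ℓ.Prime := ⟨hℓ⟩
  have hC := Groth.Agent.Etrest.HpullTors2.connectedSpace_of_isLocalRing C
  have h0 : Nonempty (EtCoh.H Q (EtCoh.const Q (ZMod ℓ)) 0 ≃+ ZMod ℓ) := by
    obtain ⟨e1⟩ := Groth.Agent.Etrest.SHPoint.nonempty_H0_const (Spec (CommRingCat.of C)) (ZMod ℓ)
    have e2 := AddEquiv.ofBijective _ (h 0 (Nat.zero_le _))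
    have e3 := ((EtCoh.HF Q 0).mapIso (EtCore.pullConst π (ZMod ℓ))).addCommGroupIsoToAddEquiv
    exact ⟨(e2.trans e3).symm.trans e1⟩
  have h1 := bijective_const_of_equiv Q (ZMod ℓ) h0
  have h2 : ConnectedSpace Q := connectedSpace_of_bijective_const h1
  refine ⟨inferInstance, h2, fun ℓ' hℓ' hL q hq hqn => ?_⟩
  obtain rfl : ℓ' = ℓ := hL
  have e2 := AddEquiv.ofBijective _ (h q hqn)
  have e3 := ((EtCoh.HF Q q).mapIso (EtCore.pullConst π (ZMod ℓ'))).addCommGroupIsoToAddEquiv
  have := Groth.Agent.S0073.result C (EtCoh.const _ (ZMod ℓ')) q hq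
  exact (e2.trans e3).symm.subsingleton

/-- The geometric fibres of an arbitrary pair of strict localizations of a locally `n`-acyclic morphism are
`n`-acyclic schemes. -/
theorem of_isLocAcyclicLE {X S : Scheme.{u}} {f : X ⟶ S} {ℓ n : ℕ} (hℓ : ℓ.Prime)
    (h : EtDepth.IsLocAcyclicLE f ℓ n) {A C : Type u} [CommRing A] [IsLocalRing A] [CommRing C]
    [IsLocalRing C] {σ : Spec (CommRingCat.of A) ⟶ S} {τ : Spec (CommRingCat.of C) ⟶ X}
    (hσ : IsStrictLoc σ) (hτ : IsStrictLoc τ) (β : A →+* C) [IsLocalHom β] (hβ : spm β ≫ σ = τ ≫ f)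
    {Ω : Type u} [Field Ω] [IsSepClosed Ω] (ω : A →+* Ω) {P : Scheme.{u}}
    (p : P ⟶ Spec (CommRingCat.of C)) (r : P ⟶ Spec (CommRingCat.of Ω))
    (hP : IsPullback p r (spm β) (spm ω)) : EtAcyc.IsAcyclicSchemeN {ℓ} n P := by
  obtain ⟨φC, hC, hC'⟩ := exists_stalk_hom τ _ rfl
  have hs : σ (closedPoint A) = f (τ (closedPoint C)) := by
    have h1 := congrArg (fun q => q (closedPoint C)) hβ
    simp only [Scheme.Hom.comp_apply] at h1
    rw [← h1]
    exact congrArg σ (Spec_closedPoint (R := CommRingCat.of A) (S := CommRingCat.of C)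
      (f := CommRingCat.ofHom β)).symm
  obtain ⟨φA, hA, hA'⟩ := exists_stalk_hom σ (f (τ (closedPoint C))) hs
  let _ : Algebra (X.presheaf.stalk (τ (closedPoint C))) C := φC.toAlgebra
  let _ : Algebra (S.presheaf.stalk (f (τ (closedPoint C)))) A := φA.toAlgebra
  let _ : Algebra A C := β.toAlgebra
  let _ : Algebra A Ω := ω.toAlgebra
  have i1 : IsLocalHom (algebraMap (X.presheaf.stalk (τ (closedPoint C))) C) := hC
  have i2 : IsLocalHom (algebraMap (S.presheaf.stalk (f (τ (closedPoint C)))) A) := hA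
  have i3 : Hensel.IsStrictHenselization (X.presheaf.stalk (τ (closedPoint C))) C :=
    UlaGeo.isStrictHenselization hτ _ hC'
  have i4 : Hensel.IsStrictHenselization (S.presheaf.stalk (f (τ (closedPoint C)))) A :=
    UlaGeo.isStrictHenselization hσ _ hA'
  have i5 : IsLocalHom (algebraMap A C) := ‹IsLocalHom β›
  have hc := (Groth.Agent.Etrest.VCBaseChange.specOf_comm f (τ (closedPoint C)) A C β).2 (by
    refine Eq.trans ?_ (hβ.trans ?_)
    · exact congrArg (fun q => spm β ≫ q) hA'
    · exact congrArg (fun q => q ≫ f) hC'.symm)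
  have := hτ.henselian
  have := hτ.sepClosed
  have e := hP.isoIsPullback _ _ (UlaGeo.isPullback_tensor A C Ω)
  refine isAcyclicSchemeN_of_iso e ?_
  have i6 : PreservesFiniteLimits (EtCoh.pull (Spec.map (CommRingCat.ofHom (algebraMap C (C ⊗[A] Ω))))) :=
    Groth.Agent.S0101.result _
  exact isAcyclicSchemeN_of_Hpull _ hℓ fun q hq => h _ A C hc Ω q hq

end Groth.Agent.Sga2lef.H105.GeoFib
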